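import Mathlib
import Cfsg.Agent.H668.Five.Rows

/-!
# `k(B₀) = 5`, `p = 2`: criteria for `Good` (helper966)
-/

set_option autoImplicit false

open Cfsg

namespace Cfsg.Agent.H966.K5

open Cfsg.Agent.H668.Five

variable {G : Type*} [Group G]

/-- `C(x)` contains an element `h` of odd order and an element `a` such that `[h, a]` is a nontrivial `2`-element. -/
theorem not_compl_of_comm [Finite G] (h a : G) (hodd : Odd (orderOf h)) {k : ℕ}
    (hk : orderOf (h * a * h⁻¹ * a⁻¹) = 2 ^ (k + 1)) : ¬ HasNormalPComplement 2 G := by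
  intro hX
  obtain ⟨N, hN, hpN, m, hm⟩ :=
    OddOrderLocal.NilpotentQuotient.exists_of_hasNormalPComplement hX
  have hhN : h ∈ N := by
    have h1 : h ^ (2 ^ m) ∈ N := by
      rw [← hm]
      exact Subgroup.pow_index_mem N h
    have h2 : Nat.Coprime (2 ^ m) (orderOf h) :=
      Nat.Coprime.pow_left m (Nat.coprime_two_left.2 hodd)
    have h3 : h ∈ Subgroup.zpowers (h ^ (2 ^ m)) := by
      obtain ⟨j, hj⟩ := exists_pow_eq_self_of_coprime h2
      exact Subgroup.mem_zpowers_iff.2 ⟨(j : ℤ), by rw [zpow_natCast]; exact hj⟩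
    exact (Subgroup.zpowers_le.2 h1) h3
  have h4 : h * a * h⁻¹ * a⁻¹ ∈ N := by
    have h5 : a * h⁻¹ * a⁻¹ ∈ N := hN.conj_mem _ (N.inv_mem hhN) a
    have := N.mul_mem hhN h5
    rwa [show h * (a * h⁻¹ * a⁻¹) = h * a * h⁻¹ * a⁻¹ by group] at this
  have h7 : orderOf (h * a * h⁻¹ * a⁻¹) ∣ Nat.card N := by
    have := orderOf_dvd_natCard (⟨_, h4⟩ : N)
    rwa [Subgroup.orderOf_mk] at this
  rw [hk] at h7
  exact hpN ((dvd_pow_self 2 (Nat.succ_ne_zero k)).trans h7)

theorem nn_of_comm [Finite G] {x : G} (h a : G) (hx : h * x = x * h) (ax : a * x = x * a) (hodd : Odd (orderOf h))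
    {k : ℕ} (hk : orderOf (h * a * h⁻¹ * a⁻¹) = 2 ^ (k + 1)) : NN x := by
  let h' : ↥(Subgroup.centralizer ({x} : Set G)) := ⟨h, Subgroup.mem_centralizer_singleton_iff.2 hx⟩
  let a' : ↥(Subgroup.centralizer ({x} : Set G)) := ⟨a, Subgroup.mem_centralizer_singleton_iff.2 ax⟩
  refine not_compl_of_comm h' a' ?_ (k := k) ?_
  · rwa [Subgroup.orderOf_mk]
  · rw [← hk, ← Subgroup.orderOf_coe]
    rfl

/-- The diagram `c —8— d —3— e` with `a = (cd)⁴`. -/
theorem good_of_cde [Finite G] {a c d e : G} (ha1 : a ≠ 1) (ha2 : a * a = 1) (hc : c * c = 1) (hd : d * d = 1)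
    (he : e * e = 1) (hcd : (c * d) ^ 4 = a) (hce : c * e = e * c) (hde : (d * e) ^ 3 = 1)
    (hae : e * a = a * e) : Good G := by
  have hci : c⁻¹ = c := inv_eq_of_mul_eq_one_right hc
  have hdi : d⁻¹ = d := inv_eq_of_mul_eq_one_right hd
  have hei : e⁻¹ = e := inv_eq_of_mul_eq_one_right he
  have hai : a⁻¹ = a := inv_eq_of_mul_eq_one_right ha2
  have hcdi : (c * d)⁻¹ = d * c := by rw [mul_inv_rev, hci, hdi]
  have hdc : (d * c) ^ 4 = a := by rw [← hcdi, inv_pow, hcd, hai]
  have hac : c * a = a * c := by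
    have h1 : c * a * c⁻¹ = a := by
      conv_lhs => rw [← hcd]
      rw [← conj_pow, show c * (c * d) * c⁻¹ = d * c by rw [← mul_assoc, hc, one_mul, hci], hdc]
    exact mul_inv_eq_iff_eq_mul.1 h1
  have had : d * a = a * d := by
    have h1 : d * a * d⁻¹ = a := by
      conv_lhs => rw [← hcd]
      rw [← conj_pow, show d * (c * d) * d⁻¹ = d * c by rw [mul_assoc, mul_assoc, mul_inv_cancel, mul_one], hdc]
    exact mul_inv_eq_iff_eq_mul.1 h1
  have ho : orderOf a = 2 := orderOf_eq_prime (by rw [pow_two, ha2]) ha1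
  have ho8 : orderOf (c * d) = 8 := by
    have h1 := orderOf_eq_prime_pow (x := c * d) (p := 2) (n := 2) (by norm_num; rw [hcd]; exact ha1)
      (by norm_num; rw [show 8 = 4 * 2 from rfl, pow_mul, hcd, pow_two, ha2])
    rw [h1]; rfl
  have ho4 : orderOf ((d * c) ^ 2) = 4 := by
    have h1 := orderOf_eq_prime_pow (x := (d * c) ^ 2) (p := 2) (n := 1) (by
      rw [← pow_mul]; norm_num; rw [hdc]; exact ha1)
      (by rw [← pow_mul]; norm_num; rw [show 8 = 4 * 2 from rfl, pow_mul, hdc, pow_two, ha2])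
    rw [h1]; rfl
  have hcomm : d * e * c * (d * e)⁻¹ * c⁻¹ = (d * c) ^ 2 := by
    rw [mul_inv_rev, hci, hdi, hei, pow_two]
    calc d * e * c * (e * d) * c = d * (e * c) * e * d * c := by simp only [mul_assoc]
      _ = d * (c * e) * e * d * c := by rw [hce]
      _ = d * c * (e * e) * d * c := by simp only [mul_assoc]
      _ = d * c * (d * c) := by rw [he, mul_one]; simp only [mul_assoc]
  refine Or.inr ⟨a, c * d, ho, nn_of_comm (d * e) c ?_ hac ?_ (k := 1) ?_, ho8⟩
  · rw [mul_assoc, hae, ← mul_assoc, had, mul_assoc]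
  · have h1 : orderOf (d * e) ∣ 3 := orderOf_dvd_of_pow_eq_one hde
    exact Odd.of_dvd_nat (by decide) h1
  · rw [hcomm, ho4]
    rfl

/-- `C(z)` perfect -/
theorem nn_of_perfect [Finite G] {z : G} (hz : orderOf z = 2)
    (h : ⁅Subgroup.centralizer ({z} : Set G), Subgroup.centralizer ({z} : Set G)⁆ = Subgroup.centralizer ({z} : Set G)) :
    NN z := by
  intro hX
  obtain ⟨N, hN, hpN, m, hm⟩ :=
    OddOrderLocal.NilpotentQuotient.exists_of_hasNormalPComplement hX
  have hcom : commutator ↥(Subgroup.centralizer ({z} : Set G)) = ⊤ := by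
    apply Subgroup.map_injective (Subgroup.subtype_injective (Subgroup.centralizer ({z} : Set G)))
    rw [commutator_def, Subgroup.map_commutator, ← MonoidHom.range_eq_map, Subgroup.range_subtype, h]
  have hNtop : N = ⊤ := by
    by_contra hne
    have hq : IsPGroup 2 (↥(Subgroup.centralizer ({z} : Set G)) ⧸ N) := IsPGroup.of_card (n := m) (by
      rw [← Subgroup.index_eq_card, hm])
    have hnil := hq.isNilpotent
    have hnt : Nontrivial (↥(Subgroup.centralizer ({z} : Set G)) ⧸ N) := QuotientGroup.nontrivial_iff.2 hne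
    have h1 : commutator (↥(Subgroup.centralizer ({z} : Set G)) ⧸ N) = ⊤ := by
      have h2 := Subgroup.map_commutator (⊤ : Subgroup ↥(Subgroup.centralizer ({z} : Set G))) ⊤ (QuotientGroup.mk' N)
      rw [← commutator_def, hcom, Subgroup.map_top_of_surjective _ (QuotientGroup.mk'_surjective N),
        ← commutator_def] at h2
      exact h2.symm
    exact (Group.IsSolvable.commutator_lt_top_of_nontrivial _).ne h1
  apply hpN
  rw [hNtop, Subgroup.card_top, ← hz]
  have h2 := orderOf_dvd_natCard (⟨z, Subgroup.mem_centralizer_singleton_iff.2 rfl⟩ : ↥(Subgroup.centralizer ({z} : Set G)))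
  rwa [Subgroup.orderOf_mk] at h2

theorem good_of_perfect [Finite G] (h : ∀ z : G, orderOf z = 2 →
    ⁅Subgroup.centralizer ({z} : Set G), Subgroup.centralizer ({z} : Set G)⁆ = Subgroup.centralizer ({z} : Set G))
    (h8 : ∃ w : G, 8 ∣ orderOf w) : Good G := by
  obtain ⟨w, hw⟩ := h8
  obtain ⟨k, hk⟩ : ∃ k, orderOf (w ^ k) = 8 := ⟨_, orderOf_pow_orderOf_div (orderOf_pos w).ne' hw⟩
  have hz : orderOf ((w ^ k) ^ 4) = 2 := by
    rw [orderOf_pow, hk]
    rfl
  exact Or.inr ⟨(w ^ k) ^ 4, w ^ k, hz, nn_of_perfect hz (h _ hz), hk⟩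

end Cfsg.Agent.H966.K5
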