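import Cfsg.Agent.H966.K5.Base
import Cfsg.Agent.HN.A12Group
import Cfsg.Agent.HN.Main

/-!
# `k(B₀) = 5`, `p = 2`: the row of `HN` (helper966)
-/

set_option autoImplicit false

open Cfsg

namespace Cfsg.Agent.H966.K5

open Cfsg.Agent.H668.Five

namespace HN

/-- permutation given by two functions on `Fin 12` -/
def mk (f g : Fin 12 → Fin 12) (h : ∀ i, g (f i) = i) (h' : ∀ i, f (g i) = i) : Equiv.Perm (Fin 12) :=
  ⟨f, g, h, h'⟩

def v : Equiv.Perm (Fin 12) :=
  mk ![1, 2, 3, 0, 5, 4, 6, 7, 8, 9, 10, 11] ![3, 0, 1, 2, 5, 4, 6, 7, 8, 9, 10, 11] (by decide) (by decide)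

def w : Equiv.Perm (Fin 12) :=
  mk ![0, 1, 2, 3, 4, 5, 7, 8, 6, 9, 10, 11] ![0, 1, 2, 3, 4, 5, 8, 6, 7, 9, 10, 11] (by decide) (by decide)

def x : Equiv.Perm (Fin 12) :=
  mk ![0, 1, 2, 3, 4, 5, 7, 6, 9, 8, 10, 11] ![0, 1, 2, 3, 4, 5, 7, 6, 9, 8, 10, 11] (by decide) (by decide)

theorem good_alt : Good (alternatingGroup (Fin 12)) := by
  have hv : v ∈ alternatingGroup (Fin 12) := by
    rw [Equiv.Perm.mem_alternatingGroup]; decide +kernel
  have hw : w ∈ alternatingGroup (Fin 12) := by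
    rw [Equiv.Perm.mem_alternatingGroup]; decide +kernel
  have hx : x ∈ alternatingGroup (Fin 12) := by
    rw [Equiv.Perm.mem_alternatingGroup]; decide +kernel
  have h4 : orderOf v = 4 := by
    have h1 := orderOf_eq_prime_pow (x := v) (p := 2) (n := 1) (by decide +kernel) (by decide +kernel)
    rw [h1]; rfl
  have h3 : orderOf w = 3 := orderOf_eq_prime (p := 3) (by decide +kernel) (by decide +kernel)
  have h2 : orderOf (w * x * w⁻¹ * x⁻¹) = 2 := orderOf_eq_prime (p := 2) (by decide +kernel) (by decide +kernel)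
  refine Or.inl ⟨⟨v, hv⟩, by rw [Subgroup.orderOf_mk, h4], nn_of_comm ⟨w, hw⟩ ⟨x, hx⟩ ?_ ?_ ?_ (k := 0) ?_⟩
  · exact Subtype.ext (by decide +kernel : w * v = v * w)
  · exact Subtype.ext (by decide +kernel : x * v = v * x)
  · rw [Subgroup.orderOf_mk, h3]; decide
  · rw [← Subgroup.orderOf_coe]
    exact h2

theorem good [Finite Spor.HN] : Good Spor.HN := by
  have := Cfsg.Agent.HN.Main.simple_HN
  obtain ⟨K, ⟨e⟩⟩ := Cfsg.Agent.HN.A12Group.exists_alternating
  exact good_alt.map (K.subtype.comp e.symm.toMonoidHom) (K.subtype_injective.comp e.symm.injective)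

end HN

theorem row_hn {S : Type*} [Group S] [Finite S] (h : Spor.IsoHN S) : Row S := by
  obtain ⟨e⟩ := h
  have : Finite Spor.HN := Finite.of_equiv S e.toEquiv
  exact Or.inl (HN.good.map e.symm.toMonoidHom e.symm.injective)

end Cfsg.Agent.H966.K5
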