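import Cfsg.Agent.H966.K5.Base
import Cfsg.Agent.KFacts.SuzRho
import Cfsg.Agent.KFacts.SuzLFour

/-!
# `k(B₀) = 5`, `p = 2`: the row of `Suz` (helper966)
-/

set_option autoImplicit false
set_option maxRecDepth 100000

open Cfsg

namespace Cfsg.Agent.H966.K5

open Cfsg.Agent.H668.Five

namespace Suz

open Cfsg.Spor Cfsg.Agent.SporadicRecognition.SuzPhi Cfsg.Agent.SporadicRecognition.SuzOrder
  Cfsg.Agent.SuzThree.Basic Cfsg.Agent.KFacts.SuzRho

theorem a_eq : (el [.c] * el [.d]) ^ 4 = el [.a] := by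
  have h : (PresentedGroup.mk (coxRelators Suz.edges ∪ {r | r ∈ Suz.extra})) (Suz.a * ((Suz.c * Suz.d) ^ 4)⁻¹) = 1 :=
    PresentedGroup.one_of_mem (Or.inr (by
      show Suz.a * ((Suz.c * Suz.d) ^ 4)⁻¹ ∈ Suz.extra
      exact List.mem_cons_self))
  rw [map_mul, map_inv, map_pow, map_mul, mul_inv_eq_one] at h
  rw [el_one, el_one, el_one]
  exact h.symm

theorem good [Finite Suz] : Good Suz := by
  have sq : ∀ x : Suz.Gen, el [x] * el [x] = 1 := fun x => by
    have h1 := pair_pow x x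
    rwa [coxLabel, if_pos rfl, pow_one] at h1
  have two : ∀ x y : Suz.Gen, coxLabel Suz.edges x y = 2 → el [x] * el [y] = el [y] * el [x] := fun x y h => by
    have h1 := pair_pow x y
    rw [h, pow_two] at h1
    rw [eq_inv_of_mul_eq_one_left h1, mul_inv_rev, inv_eq_of_mul_eq_one_right (sq x), inv_eq_of_mul_eq_one_right (sq y)]
  exact good_of_cde (a := el [.a]) (c := el [.c]) (d := el [.d]) (e := el [.e])
    (Cfsg.Agent.KFacts.SuzLFour.ne_one_of 2 (by decide +kernel))
    (sq _) (sq _) (sq _) (sq _) a_eq (two _ _ (by decide)) (pair_pow .d .e) (two _ _ (by decide))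

end Suz

theorem row_suz {S : Type*} [Group S] [Finite S] (h : Spor.IsoSuz S) : Row S := by
  obtain ⟨e⟩ := h
  have : Finite Spor.Suz := Finite.of_equiv S e.toEquiv
  exact Or.inl (Suz.good.map e.symm.toMonoidHom e.symm.injective)

end Cfsg.Agent.H966.K5
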