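import Cfsg.Agent.H966.K5.Base
import Cfsg.Agent.Th.Main475

/-!
# `k(B₀) = 5`, `p = 2`: the row of `Th` (helper966)
-/

set_option autoImplicit false

open Cfsg

namespace Cfsg.Agent.H966.K5

open Cfsg.Agent.H668.Five

namespace Th

open Cfsg.Agent.Th Cfsg.Agent.Th.Word Cfsg.Agent.Th.IndexUpper

theorem good [Finite Spor.Th] : Good Spor.Th := by
  have R := gTh_relK
  have h1 : (gTh 3 * gTh 4) ^ 4 = gTh 1 := (mul_inv_eq_one.1 R.acd).symm
  have key : ∀ {x y : Spor.Th}, x * x = 1 → y * y = 1 → (x * y) ^ 2 = 1 → x * y = y * x := fun {x y} hx hy h => by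
    rw [pow_two] at h
    rw [eq_inv_of_mul_eq_one_left h, mul_inv_rev, inv_eq_of_mul_eq_one_right hx, inv_eq_of_mul_eq_one_right hy]
  have ha : gTh 1 * gTh 1 = 1 := by rw [← pow_two]; exact R.a2
  have hc : gTh 3 * gTh 3 = 1 := by rw [← pow_two]; exact R.c2
  have hd : gTh 4 * gTh 4 = 1 := by rw [← pow_two]; exact R.d2
  have he : gTh 5 * gTh 5 = 1 := by rw [← pow_two]; exact R.e2
  exact good_of_cde (a := gTh 1) (c := gTh 3) (d := gTh 4) (e := gTh 5) Main475.a_ne_one ha hc hd he h1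
    (key hc he R.ce2) R.de3 (key ha he R.ae2).symm

end Th

theorem row_th {S : Type*} [Group S] [Finite S] (h : Spor.IsoTh S) : Row S := by
  obtain ⟨e⟩ := h
  have : Finite Spor.Th := Finite.of_equiv S e.toEquiv
  exact Or.inl (Th.good.map e.symm.toMonoidHom e.symm.injective)

end Cfsg.Agent.H966.K5
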